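import Cfsg.Agent.H999.IF.Heis
import Cfsg.Agent.H450.UF.Base

/-!
# S5719, unitary groups: groups of Siegel elements without transvections (helper999, for helper406)
-/

set_option autoImplicit false
set_option linter.unusedSectionVars false

namespace Cfsg.Agent.H999.IFU

open Cfsg Module Cfsg.Agent.H91.U Cfsg.Agent.H450.UF

variable {F V : Type*} [Field F] [AddCommGroup V] [Module F V] {σ : F →+* F} {B : V →ₛₗ[σ] V →ₗ[F] F}

/-- A subgroup on which `B` is symmetric has at most `√|V|` elements. -/
theorem card_sq_le [Finite F] [FiniteDimensional F V] (hB : HForm B) (Y : AddSubgroup V)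
    (hY : ∀ y ∈ Y, ∀ v ∈ Y, B v y = B y v) : Nat.card Y * Nat.card Y ≤ Nat.card V := by
  classical
  have : Finite V := Module.finite_of_finite F
  obtain ⟨x0, hx0⟩ : ∃ x0 : F, x0 - σ x0 ≠ 0 := by
    by_contra hcon
    push Not at hcon
    apply hB.ne_id
    ext x
    exact (sub_eq_zero.1 (hcon x)).symm
  obtain ⟨ω, hω⟩ := AddChar.exists_apply_ne_zero.2 hx0
  let Ψ : V → AddChar V ℂ := fun y =>
    { toFun := fun v => ω (B v y - B y v)
      map_zero_eq_one' := by
        rw [map_zero, map_zero, LinearMap.zero_apply, sub_zero]; exact AddChar.map_zero_eq_one ω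
      map_add_eq_mul' := by
        intro v v'
        rw [map_add, map_add, LinearMap.add_apply, ← AddChar.map_add_eq_mul]
        congr 1
        ring }
  have hΨ : ∀ y v, Ψ y v = ω (B v y - B y v) := fun _ _ => rfl
  apply iso_card Ψ _ Y
  · intro y hy v hv
    rw [hΨ, hY y hy v hv, sub_self]
    exact AddChar.map_zero_eq_one ω
  · intro y y' hyy
    by_contra hne
    obtain ⟨v, hv⟩ := hB.exists_ne (sub_ne_zero.2 hne)
    have hv' : B v (y - y') ≠ 0 := fun h => hv (hB.swap_zero h)
    obtain ⟨c, hc⟩ : ∃ c : F, σ c * B v (y - y') = x0 := by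
      refine ⟨σ (x0 / B v (y - y')), ?_⟩
      rw [hB.invol, div_mul_cancel₀ _ hv']
    have h1 : B (c • v) (y - y') = x0 := by rw [Cfsg.Agent.H450.UF.smul_left, hc]
    have h2 : B (y - y') (c • v) = σ x0 := by rw [sw hB (c • v) (y - y'), h1]
    have h3 : Ψ y (c • v) = Ψ y' (c • v) := by rw [hyy]
    apply hω
    have h4 : x0 - σ x0 = (B (c • v) y - B y (c • v)) - (B (c • v) y' - B y' (c • v)) := by
      rw [← h2, ← h1, map_sub, map_sub, LinearMap.sub_apply]
      ring
    rw [h4, AddChar.map_sub_eq_div, ← hΨ, ← hΨ, h3, div_self]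
    rw [hΨ]
    exact (AddChar.val_isUnit ω _).ne_zero

/-- **Lemma H (abstract form).** A group of Siegel elements of `e` without transvections. -/
theorem card_le_of_no_transv [Fintype F] [FiniteDimensional F V] {q : ℕ} (hF : Fintype.card F = q ^ 2) (hB : HForm B)
    {K : Subgroup (SIso B)} {e : V} (he : e ≠ 0) (hee : B e e = 0) (h1 : ∀ g ∈ K, (g : SIso B).1 e = e)
    (h2 : ∀ g ∈ K, ∀ x, B e x = 0 → ∃ c : F, (g : SIso B).1 x = x + c • e)
    (h3 : ∀ g ∈ K, (∀ x, B e x = 0 → (g : SIso B).1 x = x) → g = 1) : Nat.card K ≤ q ^ (finrank F V - 2) := by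
  classical
  have hfV : Finite V := Module.finite_of_finite F
  obtain ⟨x, hx⟩ := hB.exists_ne he
  let f : V := (B e x)⁻¹ • x
  have hef : B e f = 1 := by rw [Cfsg.Agent.H450.UF.smul_right, inv_mul_cancel₀ hx]
  have hfe : B f e = 1 := by rw [sw hB e f, hef, map_one]
  let z : K → V := fun g => g.1.1 f - f
  have hz : ∀ g : K, g.1.1 f = f + z g := fun g => (add_sub_cancel _ _).symm
  have hze : ∀ g : K, B e (z g) = 0 := by
    intro g
    have h4 := g.1.2.2 e f
    rw [h1 g.1 g.2, hz, map_add, add_eq_left] at h4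
    exact h4
  have hzx : ∀ (g : K) (x : V), B e x = 0 → g.1.1 x = x - B (z g) x • e := by
    intro g x hx
    obtain ⟨c, hc⟩ := h2 g.1 g.2 x hx
    have h4 := g.1.2.2 f x
    have h5 : B (z g) e = 0 := hB.swap_zero (hze g)
    rw [hz, hc, map_add, map_add, LinearMap.add_apply, LinearMap.add_apply, Cfsg.Agent.H450.UF.smul_right, Cfsg.Agent.H450.UF.smul_right, hfe, h5,
      mul_zero, mul_one, add_zero] at h4
    have h6 : c = -B (z g) x := by linear_combination h4
    rw [hc, h6, neg_smul, sub_eq_add_neg]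
  -- `g` is determined by `z g` modulo `e`
  have hinj : ∀ (g g' : K) (a a' : F), z g + a • e = z g' + a' • e → g = g' ∧ a = a' := by
    intro g g' a a' h
    have h4 : ∀ x, B e x = 0 → B (z g) x = B (z g') x := by
      intro x hx
      have h5 := congrArg (fun v => B v x) h
      simp only [map_add, LinearMap.add_apply, Cfsg.Agent.H450.UF.smul_left, hx, mul_zero, add_zero] at h5
      exact h5
    have h6 : g'⁻¹ * g = 1 := by
      apply Subtype.ext
      apply h3 _ (g'⁻¹ * g).2
      intro x hx
      change g'.1.1⁻¹ (g.1.1 x) = x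
      have h7 : g.1.1 x = g'.1.1 x := by rw [hzx g x hx, hzx g' x hx, h4 x hx]
      rw [h7]
      exact LinearEquiv.symm_apply_apply g'.1.1 x
    have h7 : g = g' := (inv_mul_eq_one.1 h6).symm
    refine ⟨h7, ?_⟩
    rw [h7, add_right_inj] at h
    exact smul_left_injective F he h
  have hmul : ∀ g g' : K, z (g * g') = z g + z g' - B (z g) (z g') • e := by
    intro g g'
    change g.1.1 (g'.1.1 f) - f = _
    rw [hz g', map_add, hz g, hzx g _ (hze g')]
    abel
  have hcomm : ∀ g g' : K, g * g' = g' * g := by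
    intro g g'
    apply (hinj (g * g') (g' * g) (B (z g) (z g')) (B (z g') (z g)) _).1
    rw [hmul, hmul]
    abel
  have hsymm : ∀ g g' : K, B (z g) (z g') = B (z g') (z g) := by
    intro g g'
    have h4 := hmul g g'
    rw [hcomm g g', hmul g' g, add_comm (z g') (z g)] at h4
    have h5 : B (z g') (z g) • e = B (z g) (z g') • e := by
      have := congrArg (fun v => z g + z g' - v) h4
      simpa using this
    exact (smul_left_injective F he h5).symm
  have hz1 : z 1 = 0 := sub_self f
  have hinv : ∀ g : K, z g⁻¹ = -z g - B (z g) (z g) • e := by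
    intro g
    have h4 := hmul g g⁻¹
    rw [mul_inv_cancel, hz1] at h4
    have h5 : B (z g) (z g⁻¹) = -B (z g) (z g) := by
      have h6 := congrArg (fun v => B (z g) v) h4
      simp only [map_zero, map_sub, map_add, Cfsg.Agent.H450.UF.smul_right, hB.swap_zero (hze g), mul_zero, sub_zero] at h6
      linear_combination -h6
    rw [h5] at h4
    have h7 : z g⁻¹ = (z g + z g⁻¹ - -B (z g) (z g) • e) - z g - B (z g) (z g) • e := by
      rw [neg_smul]; abel
    rw [h7, ← h4, zero_sub]
  let Y : AddSubgroup V :=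
    { carrier := {v | ∃ (g : K) (a : F), v = z g + a • e}
      zero_mem' := ⟨1, 0, by rw [hz1, zero_smul, add_zero]⟩
      add_mem' := by
        rintro _ _ ⟨g, a, rfl⟩ ⟨g', a', rfl⟩
        refine ⟨g * g', a + a' + B (z g) (z g'), ?_⟩
        rw [hmul, add_smul, add_smul]
        abel
      neg_mem' := by
        rintro _ ⟨g, a, rfl⟩
        refine ⟨g⁻¹, -a + B (z g) (z g), ?_⟩
        rw [hinv, add_smul, neg_smul]
        abel }
  have hYs : ∀ y ∈ Y, ∀ v ∈ Y, B v y = B y v := by
    rintro _ ⟨g, a, rfl⟩ _ ⟨g', a', rfl⟩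
    simp only [map_add, LinearMap.add_apply, Cfsg.Agent.H450.UF.smul_left, Cfsg.Agent.H450.UF.smul_right, hze, hB.swap_zero (hze _), hee, mul_zero,
      add_zero]
    exact hsymm g' g
  have hc := card_sq_le hB Y hYs
  have hcY : Nat.card Y = Nat.card K * q ^ 2 := by
    rw [← hF, ← Nat.card_eq_fintype_card, ← Nat.card_prod]
    symm
    apply Nat.card_congr
    refine Equiv.ofBijective (fun p : K × F => (⟨z p.1 + p.2 • e, p.1, p.2, rfl⟩ : Y)) ⟨?_, ?_⟩
    · intro p p' hpp
      have := hinj p.1 p'.1 p.2 p'.2 (congrArg (fun y : Y => (y : V)) hpp)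
      exact Prod.ext this.1 this.2
    · rintro ⟨_, g, a, rfl⟩
      exact ⟨(g, a), rfl⟩
  have hcV : Nat.card V = q ^ (finrank F V) * q ^ (finrank F V) := by
    rw [Module.natCard_eq_pow_finrank (K := F), Nat.card_eq_fintype_card, hF, ← pow_mul, ← pow_add]
    congr 1
    ring
  rw [hcV] at hc
  have h8 : Nat.card K * q ^ 2 ≤ q ^ finrank F V := by
    rw [← hcY]
    exact Nat.mul_self_le_mul_self_iff.1 hc
  have hq : 0 < q := by
    rcases Nat.eq_zero_or_pos q with h | h
    · rw [h] at hF
      exact absurd hF (by simp [Fintype.card_ne_zero])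
    · exact h
  have h9 : 2 ≤ finrank F V := by
    by_contra hcon
    push Not at hcon
    -- `e`, `f` are linearly independent
    have h10 : LinearIndependent F ![e, f] := by
      rw [LinearIndependent.pair_iff]
      intro s t hst
      have h11 := congrArg (fun v => B e v) hst
      simp only [map_add, Cfsg.Agent.H450.UF.smul_right, hee, hef, map_zero, mul_zero, zero_add, mul_one] at h11
      refine ⟨?_, h11⟩
      rw [h11, zero_smul, add_zero] at hst
      exact (smul_eq_zero.1 hst).resolve_right he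
    have h11 := h10.fintype_card_le_finrank
    rw [Fintype.card_fin] at h11
    omega
  have h12 : q ^ finrank F V = q ^ (finrank F V - 2) * q ^ 2 := by
    rw [← pow_add]
    congr 1
    omega
  rw [h12] at h8
  exact Nat.le_of_mul_le_mul_right h8 (by positivity)

end Cfsg.Agent.H999.IFU
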