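import Cfsg.Agent.H999.IF.UC
import Cfsg.Agent.H450.UF.Model

/-!
# S5719, PSU_n(q), q even, n ≥ 5: a transvection in `A` is impossible, abstract form (helper999, for helper406)
-/

set_option autoImplicit false
set_option linter.unusedSectionVars false

namespace Cfsg.Agent.H999.IFU

open Cfsg Module Cfsg.Agent.H209.Fxy Cfsg.Agent.H91.U Cfsg.Agent.LieClassical.HermBasic
  Cfsg.Agent.LieClassical.HermSiegel
open Cfsg.Agent.H77.Witt (formB formB_apply)

section

variable {F V W : Type*} [Field F] [AddCommGroup V] [Module F V] [AddCommGroup W] [Module F W] {σ τ : F →+* F}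
  {B : V →ₛₗ[σ] V →ₗ[F] F} {B' : W →ₛₗ[τ] W →ₗ[F] F}

/-- transport of special isometry groups -/
def conjS (φ : V ≃ₗ[F] W) (hφ : ∀ v w, B v w = B' (φ v) (φ w)) : SIso B →* SIso B' where
  toFun g := ⟨(φ.symm.trans g.1).trans φ, by
    refine ⟨?_, ?_⟩
    · apply Units.ext
      rw [LinearEquiv.coe_det]
      have h1 : (((φ.symm.trans g.1).trans φ : W ≃ₗ[F] W) : W →ₗ[F] W) =
        (φ : V →ₗ[F] W) ∘ₗ (g.1 : V →ₗ[F] V) ∘ₗ (φ.symm : W →ₗ[F] V) := rfl
      rw [h1, LinearMap.det_conj, ← LinearEquiv.coe_det, g.2.1]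
    · intro x y
      change B' (φ (g.1 (φ.symm x))) (φ (g.1 (φ.symm y))) = B' x y
      rw [← hφ, g.2.2, hφ, φ.apply_symm_apply, φ.apply_symm_apply]⟩
  map_one' := by
    apply Subtype.ext
    apply LinearEquiv.ext
    intro x
    exact φ.apply_symm_apply x
  map_mul' := by
    intro g g'
    apply Subtype.ext
    apply LinearEquiv.ext
    intro x
    change φ (g.1 (g'.1 (φ.symm x))) = φ (g.1 (φ.symm (φ (g'.1 (φ.symm x)))))
    rw [φ.symm_apply_apply]

theorem conjS_apply (φ : V ≃ₗ[F] W) (hφ : ∀ v w, B v w = B' (φ v) (φ w)) (g : SIso B) (x : W) :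
    (conjS φ hφ g).1 x = φ (g.1 (φ.symm x)) := rfl

theorem conjS_surjective (φ : V ≃ₗ[F] W) (hφ : ∀ v w, B v w = B' (φ v) (φ w)) :
    Function.Surjective (conjS (B := B) (B' := B') φ hφ) := by
  intro s
  refine ⟨conjS (B := B') (B' := B) φ.symm (fun v w => by rw [hφ, φ.apply_symm_apply, φ.apply_symm_apply]) s, ?_⟩
  apply Subtype.ext
  apply LinearEquiv.ext
  intro x
  change φ (φ.symm (s.1 (φ (φ.symm x)))) = s.1 x
  rw [φ.apply_symm_apply, φ.apply_symm_apply]

end

variable {F V : Type*} [Field F] [Fintype F] [AddCommGroup V] [Module F V] [FiniteDimensional F V] {σ : F →+* F}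
  {B : V →ₛₗ[σ] V →ₗ[F] F} {q : ℕ}
  {T : Type*} [Group T] [Finite T] [IsSimpleGroup T] {A : Subgroup T} {Γ : Subgroup (MulAut T)}

/-- **A transvection in `A` is impossible** (abstract form). -/
theorem transv_false_abs (hF : Fintype.card F = q ^ 2) (h2 : (2 : F) = 0) (hB : HForm B) (hn : 5 ≤ finrank F V)
    (h : IF A Γ) (hna : ∃ a b : T, a * b ≠ b * a) (pi : SIso B →* T) (hpi : Function.Surjective pi) {e : V}
    (he0 : e ≠ 0) (he : B e e = 0) {a : F} (ha : a ≠ 0) {g : SIso B} (hg : ∀ x, g.1 x = x + (a * B e x) • e)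
    (ht : pi g ∈ A) : False := by
  obtain ⟨n, hnV, φ, hφ⟩ : ∃ n : ℕ, n = finrank F V ∧ ∃ φ : V ≃ₗ[F] (Fin n → F), ∀ v w, B v w =
    hermForm n F q (φ w) (φ v) := ⟨_, rfl, Cfsg.Agent.H450.UF.exists_model hF hB⟩
  rw [← hnV] at hn
  have hφ' : ∀ v w : Fin n → F, formB hF n v w = B (φ.symm v) (φ.symm w) := by
    intro v w
    rw [hφ, φ.apply_symm_apply, φ.apply_symm_apply]
    rfl
  let θ : SU n F q →* SIso B :=
    (conjS (B := formB hF n) (B' := B) φ.symm hφ').comp (Cfsg.Agent.H450.UF.toIso hF).toMonoidHom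
  have hθs : Function.Surjective θ :=
    (conjS_surjective (B := formB hF n) (B' := B) φ.symm hφ').comp (Cfsg.Agent.H450.UF.toIso hF).surjective
  have hθ : ∀ (s : SU n F q) (x : V), (θ s).1 x = φ.symm (act s (φ x)) := fun s x => rfl
  have hsw : ∀ x y : V, B y x = σ (B x y) := fun x y => hB.swap y x
  have hpow : ∀ x : F, σ x = x ^ q := fun x => Cfsg.Agent.H450.UF.sig_eq hF hB.ne_id hB.invol x
  have hee : hermForm n F q (φ e) (φ e) = 0 := by rw [← hφ]; exact he
  -- `a` is fixed by `σ`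
  have hKm : a ∈ Km hF := by
    obtain ⟨y, hy⟩ := hB.exists_ne he0
    obtain ⟨f, hef⟩ : ∃ f, B e f = 1 :=
      ⟨(B e y)⁻¹ • y, by rw [Cfsg.Agent.H450.UF.smul_right, inv_mul_cancel₀ hy]⟩
    have hfe : B f e = 1 := by rw [hsw e f, hef, map_one]
    have h3 := g.2.2 f f
    rw [hg f, hef, mul_one, map_add, map_add, LinearMap.add_apply, LinearMap.add_apply,
      Cfsg.Agent.H450.UF.smul_left, Cfsg.Agent.H450.UF.smul_right, Cfsg.Agent.H450.UF.smul_left, Cfsg.Agent.H450.UF.smul_right, hef, hfe, he] at h3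
    rw [mem_Km, ← hpow]
    linear_combination h3
  apply transv_false hF h2 hn h hna (pi.comp θ) (hpi.comp hθs) (e := φ e) (fun h0 => he0 (by simpa using h0)) hee hKm ha
  change pi (θ _) ∈ A
  have h4 : θ (siegel hF (φ e) 0 a (isT hee hKm)) = g := by
    apply Subtype.ext
    apply LinearEquiv.ext
    intro x
    rw [hθ, act_transv hF hee hKm, hg, map_add, map_smul, φ.symm_apply_apply, φ.symm_apply_apply, hφ]
  rw [h4]
  exact ht

end Cfsg.Agent.H999.IFU

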