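import Cfsg.Agent.LieClassical.HermPerfect

/-!
# S5719, unitary groups: the Heisenberg lemma (helper999)

`HP hF u` : the group of pairs `(w, μ)` with `w ⟂ u`, `μ + μ^q + h(w,w) = 0`; `rho` : `HP hF u →* SU n F q`
(Siegel elements of the isotropic vector `u`).

* `card_heis` : `X ≤ SU`, not all transvections of centre `u` in `X`: `|ρ⁻¹(X)| ≤ q^n |Z(u)|`.
-/

set_option autoImplicit false
set_option linter.unusedSectionVars false

namespace Cfsg.Agent.H999.IFU

open Cfsg Matrix Cfsg.Agent.LieClassical.HermBasic Cfsg.Agent.LieClassical.HermSiegel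
  Cfsg.Agent.LieClassical.HermSimple

section Char

/-- A totally isotropic subgroup for a nondegenerate pairing with values in `ℂˣ`. -/
theorem iso_card {V : Type*} [AddCommGroup V] [Finite V] (Ψ : V → AddChar V ℂ) (hinj : Function.Injective Ψ)
    (Y : AddSubgroup V) (hY : ∀ y ∈ Y, ∀ v ∈ Y, Ψ y v = 1) : Nat.card Y * Nat.card Y ≤ Nat.card V := by
  classical
  have hk : ∀ y : Y, ∀ v ∈ Y, (AddChar.toAddMonoidHom (Ψ y)) v = 0 := fun y v hv => hY y y.2 v hv
  let f : Y → AddChar (V ⧸ Y) ℂ := fun y =>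
    AddChar.toAddMonoidHomEquiv.symm (QuotientAddGroup.lift Y (AddChar.toAddMonoidHom (Ψ y)) (hk y))
  have hf : ∀ (y : Y) (v : V), f y (v : V ⧸ Y) = Ψ y v := fun y v => rfl
  have hfi : Function.Injective f := by
    intro y y' h
    apply Subtype.ext
    apply hinj
    ext v
    rw [← hf, ← hf, h]
  have h1 : Nat.card Y ≤ Nat.card (AddChar (V ⧸ Y) ℂ) := Nat.card_le_card_of_injective f hfi
  have h2 : Nat.card (AddChar (V ⧸ Y) ℂ) = Nat.card (V ⧸ Y) := by
    have := Fintype.ofFinite (V ⧸ Y)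
    rw [Nat.card_eq_fintype_card, Nat.card_eq_fintype_card]
    exact AddChar.card_eq (α := V ⧸ Y)
  rw [h2] at h1
  rw [AddSubgroup.card_eq_card_quotient_mul_card_addSubgroup Y]
  exact Nat.mul_le_mul_right _ h1

end Char

variable {F : Type*} [Field F] [Fintype F] {q n : ℕ}

/-- The Heisenberg group of `u`. -/
def HP (_hF : Fintype.card F = q ^ 2) (u : Fin n → F) : Type _ :=
  {p : (Fin n → F) × F // hermForm n F q p.1 u = 0 ∧ p.2 + p.2 ^ q + hermForm n F q p.1 p.1 = 0}

instance (hF : Fintype.card F = q ^ 2) (u : Fin n → F) : Finite (HP hF u) := by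
  classical
  exact Subtype.finite

instance (hF : Fintype.card F = q ^ 2) (u : Fin n → F) : Mul (HP hF u) :=
  ⟨fun a b => ⟨(a.1.1 + b.1.1, a.1.2 + b.1.2 - hermForm n F q b.1.1 a.1.1), by
    refine ⟨by rw [herm_add_left, a.2.1, b.2.1, add_zero], ?_⟩
    rw [sub_pow_q hF, add_pow_q hF, ← herm_swap hF, herm_add_left, herm_add_right hF, herm_add_right hF]
    linear_combination a.2.2 + b.2.2⟩⟩

instance (hF : Fintype.card F = q ^ 2) (u : Fin n → F) : One (HP hF u) :=
  ⟨⟨(0, 0), ⟨herm_zero_left u, by rw [zero_pow_q hF, herm_zero_left]; ring⟩⟩⟩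

instance (hF : Fintype.card F = q ^ 2) (u : Fin n → F) : Inv (HP hF u) :=
  ⟨fun a => ⟨(-a.1.1, a.1.2 ^ q), by
    refine ⟨by rw [herm_neg_left, a.2.1, neg_zero], ?_⟩
    rw [pow_q_pow_q hF, herm_neg_left, herm_neg_right hF, neg_neg]
    linear_combination a.2.2⟩⟩

theorem HP.ext {hF : Fintype.card F = q ^ 2} {u : Fin n → F} {a b : HP hF u} (h1 : a.1.1 = b.1.1)
    (h2 : a.1.2 = b.1.2) : a = b := Subtype.ext (Prod.ext h1 h2)

theorem HP.mul_fst {hF : Fintype.card F = q ^ 2} {u : Fin n → F} (a b : HP hF u) : (a * b).1.1 = a.1.1 + b.1.1 := rfl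

theorem HP.mul_snd {hF : Fintype.card F = q ^ 2} {u : Fin n → F} (a b : HP hF u) :
    (a * b).1.2 = a.1.2 + b.1.2 - hermForm n F q b.1.1 a.1.1 := rfl

theorem HP.one_fst {hF : Fintype.card F = q ^ 2} {u : Fin n → F} : (1 : HP hF u).1.1 = 0 := rfl

theorem HP.one_snd {hF : Fintype.card F = q ^ 2} {u : Fin n → F} : (1 : HP hF u).1.2 = 0 := rfl

theorem HP.inv_fst {hF : Fintype.card F = q ^ 2} {u : Fin n → F} (a : HP hF u) : (a⁻¹).1.1 = -a.1.1 := rfl

theorem HP.inv_snd {hF : Fintype.card F = q ^ 2} {u : Fin n → F} (a : HP hF u) : (a⁻¹).1.2 = a.1.2 ^ q := rfl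

instance (hF : Fintype.card F = q ^ 2) (u : Fin n → F) : Group (HP hF u) :=
  Group.ofLeftAxioms
    (fun a b c => HP.ext (by rw [HP.mul_fst, HP.mul_fst, HP.mul_fst, HP.mul_fst, add_assoc]) (by
      rw [HP.mul_snd, HP.mul_snd, HP.mul_snd, HP.mul_snd, HP.mul_fst, HP.mul_fst, herm_add_right hF, herm_add_left]
      ring))
    (fun a => HP.ext (by rw [HP.mul_fst, HP.one_fst, zero_add]) (by
      rw [HP.mul_snd, HP.one_fst, HP.one_snd, herm_zero_right hF]; ring))
    (fun a => HP.ext (by rw [HP.mul_fst, HP.inv_fst, HP.one_fst, neg_add_cancel]) (by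
      rw [HP.mul_snd, HP.inv_fst, HP.inv_snd, HP.one_snd, herm_neg_right hF]
      linear_combination a.2.2))

/-- the Siegel elements of `u` -/
def rho (hF : Fintype.card F = q ^ 2) {u : Fin n → F} (hu : hermForm n F q u u = 0) : HP hF u →* SU n F q :=
  MonoidHom.mk' (fun p => siegel hF u p.1.1 p.1.2 ⟨hu, p.2.1, p.2.2⟩) (fun a b => (siegel_mul hF _ _).symm)

theorem rho_apply (hF : Fintype.card F = q ^ 2) {u : Fin n → F} (hu : hermForm n F q u u = 0) (p : HP hF u) :
    rho hF hu p = siegel hF u p.1.1 p.1.2 ⟨hu, p.2.1, p.2.2⟩ := rfl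

/-- the projection to the vector -/
def prV (hF : Fintype.card F = q ^ 2) (u : Fin n → F) : HP hF u →* Multiplicative (Fin n → F) :=
  MonoidHom.mk' (fun p => Multiplicative.ofAdd p.1.1) (fun _ _ => rfl)

/-- the trace zero elements -/
def Km (hF : Fintype.card F = q ^ 2) : AddSubgroup F where
  carrier := {κ | κ + κ ^ q = 0}
  zero_mem' := by change (0 : F) + 0 ^ q = 0; rw [zero_pow_q hF, add_zero]
  add_mem' := by
    intro a b ha hb
    change a + a ^ q = 0 at ha
    change b + b ^ q = 0 at hb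
    change (a + b) + (a + b) ^ q = 0
    rw [add_pow_q hF]
    linear_combination ha + hb
  neg_mem' := by
    intro a ha
    change a + a ^ q = 0 at ha
    change -a + (-a) ^ q = 0
    rw [neg_pow_q hF]
    linear_combination -ha

theorem mem_Km {hF : Fintype.card F = q ^ 2} {κ : F} : κ ∈ Km hF ↔ κ + κ ^ q = 0 := Iff.rfl

/-- a transvection is a Siegel element -/
theorem isT {hF : Fintype.card F = q ^ 2} {u : Fin n → F} (hu : hermForm n F q u u = 0) {κ : F} (hκ : κ ∈ Km hF) :
    IsSiegel q u 0 κ := ⟨hu, herm_zero_left u, by rw [herm_zero_left, add_zero]; exact hκ⟩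

/-- the transvections of centre `u` in `X` -/
def Zu (hF : Fintype.card F = q ^ 2) {u : Fin n → F} (hu : hermForm n F q u u = 0) (X : Subgroup (SU n F q)) :
    AddSubgroup (Km hF) where
  carrier := {κ | siegel hF u 0 κ.1 (isT hu κ.2) ∈ X}
  zero_mem' := by
    change siegel hF u 0 0 _ ∈ X
    rw [siegel_zero]; exact one_mem X
  add_mem' := by
    intro a b ha hb
    change siegel hF u 0 a.1 _ ∈ X at ha
    change siegel hF u 0 b.1 _ ∈ X at hb
    change siegel hF u 0 (a.1 + b.1) _ ∈ X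
    have h := X.mul_mem ha hb
    rw [siegel_mul] at h
    rwa [siegel_congr hF _ (isT hu (a + b).2) rfl (add_zero _) (by rw [herm_zero_left, sub_zero]; rfl)] at h
  neg_mem' := by
    intro a ha
    change siegel hF u 0 a.1 _ ∈ X at ha
    change siegel hF u 0 (-a.1) _ ∈ X
    have h := X.inv_mem ha
    rw [siegel_inv] at h
    have h3 : a.1 ^ q = -a.1 := by have h4 : a.1 + a.1 ^ q = 0 := a.2; linear_combination h4
    rwa [siegel_congr hF _ (isT hu (-a).2) rfl neg_zero (by rw [h3]; rfl)] at h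

theorem mem_Zu {hF : Fintype.card F = q ^ 2} {u : Fin n → F} {hu : hermForm n F q u u = 0} {X : Subgroup (SU n F q)}
    {κ : Km hF} : κ ∈ Zu hF hu X ↔ siegel hF u 0 κ.1 (isT hu κ.2) ∈ X := Iff.rfl

/-- the vectors of the Siegel elements in `X` -/
def Yu (hF : Fintype.card F = q ^ 2) {u : Fin n → F} (hu : hermForm n F q u u = 0) (X : Subgroup (SU n F q)) :
    AddSubgroup (Fin n → F) where
  carrier := {w | ∃ p : HP hF u, p ∈ X.comap (rho hF hu) ∧ p.1.1 = w}
  zero_mem' := ⟨1, one_mem _, rfl⟩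
  add_mem' := by
    rintro _ _ ⟨p, hp, rfl⟩ ⟨p', hp', rfl⟩
    exact ⟨p * p', mul_mem hp hp', rfl⟩
  neg_mem' := by
    rintro _ ⟨p, hp, rfl⟩
    exact ⟨p⁻¹, inv_mem hp, rfl⟩

theorem card_F (hF : Fintype.card F = q ^ 2) : Nat.card (Fin n → F) = q ^ (2 * n) := by
  rw [Nat.card_eq_fintype_card, Fintype.card_fun, hF, Fintype.card_fin, pow_mul]

/-- `h(v,y) - h(y,v)` -/
def alt (hF : Fintype.card F = q ^ 2) (v y : Fin n → F) : Km hF :=
  ⟨hermForm n F q v y - hermForm n F q y v, by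
    rw [mem_Km, sub_pow_q hF, ← herm_swap hF, ← herm_swap hF]; ring⟩

theorem alt_add (hF : Fintype.card F = q ^ 2) (v v' y : Fin n → F) : alt hF (v + v') y = alt hF v y + alt hF v' y := by
  apply Subtype.ext
  change hermForm n F q (v + v') y - hermForm n F q y (v + v') = (hermForm n F q v y - hermForm n F q y v) +
    (hermForm n F q v' y - hermForm n F q y v')
  rw [herm_add_left, herm_add_right hF]
  ring

theorem alt_zero (hF : Fintype.card F = q ^ 2) (y : Fin n → F) : alt hF 0 y = 0 := by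
  apply Subtype.ext
  change hermForm n F q 0 y - hermForm n F q y 0 = 0
  rw [herm_zero_left, herm_zero_right hF, sub_zero]

theorem alt_sub (hF : Fintype.card F = q ^ 2) (v y y' : Fin n → F) : alt hF v (y - y') = alt hF v y - alt hF v y' := by
  apply Subtype.ext
  change hermForm n F q v (y - y') - hermForm n F q (y - y') v = (hermForm n F q v y - hermForm n F q y v) -
    (hermForm n F q v y' - hermForm n F q y' v)
  rw [herm_sub_left, herm_sub_right hF]
  ring

/-- `x - x^q` is onto the trace zero elements (for `|F| = q²`) -/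
theorem exists_sub_pow (hF : Fintype.card F = q ^ 2) {κ : F} (hκ : κ ∈ Km hF) : ∃ x : F, x - x ^ q = κ := by
  obtain ⟨z, hz0, hz⟩ := exists_trace_zero_ne hF
  have hzq : z ^ q = -z := by linear_combination hz
  have hκq : κ ^ q = -κ := by have := mem_Km.1 hκ; linear_combination this
  have hc : (κ / z) ^ q = κ / z := by rw [div_pow, hzq, hκq, neg_div_neg_eq]
  obtain ⟨x, hx⟩ := exists_trace_eq hF hc
  refine ⟨x * z, ?_⟩
  rw [mul_pow, hzq]
  have : x * z - x ^ q * -z = (x + x ^ q) * z := by ring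
  rw [this, hx, div_mul_cancel₀ _ hz0]

/-- **The vectors of the Siegel elements in `X` form a totally isotropic group.** -/
theorem card_Yu (hF : Fintype.card F = q ^ 2) {u : Fin n → F} (hu : hermForm n F q u u = 0) {X : Subgroup (SU n F q)}
    (hZ : Zu hF hu X ≠ ⊤) : Nat.card (Yu hF hu X) ≤ q ^ n := by
  classical
  obtain ⟨κ0, -, hκ0⟩ : ∃ κ ∈ (⊤ : AddSubgroup (Km hF)), κ ∉ Zu hF hu X := by
    by_contra hcon
    push Not at hcon
    exact hZ (top_le_iff.1 hcon)
  obtain ⟨ψ, hψ⟩ := AddChar.exists_apply_ne_zero (a := (κ0 : Km hF ⧸ Zu hF hu X)).2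
    (by rwa [Ne, QuotientAddGroup.eq_zero_iff])
  let Ψ : (Fin n → F) → AddChar (Fin n → F) ℂ := fun y =>
    { toFun := fun v => ψ ((alt hF v y : Km hF) : Km hF ⧸ Zu hF hu X)
      map_zero_eq_one' := by rw [alt_zero]; exact AddChar.map_zero_eq_one ψ
      map_add_eq_mul' := by
        intro v v'
        rw [alt_add, QuotientAddGroup.mk_add, AddChar.map_add_eq_mul] }
  have hΨ : ∀ y v, Ψ y v = ψ ((alt hF v y : Km hF) : Km hF ⧸ Zu hF hu X) := fun _ _ => rfl
  have hinj : Function.Injective Ψ := by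
    intro y y' hyy
    by_contra hne
    have hne' : y - y' ≠ 0 := sub_ne_zero.2 hne
    obtain ⟨v, hv⟩ := exists_herm_ne_zero hF hne'
    have hv' : hermForm n F q v (y - y') ≠ 0 := fun h => hv (herm_eq_zero_swap hF h)
    obtain ⟨x, hx⟩ := exists_sub_pow hF κ0.2
    let c : F := x / hermForm n F q v (y - y')
    have h1 : alt hF (c • v) (y - y') = κ0 := by
      apply Subtype.ext
      change hermForm n F q (c • v) (y - y') - hermForm n F q (y - y') (c • v) = κ0.1
      rw [herm_swap hF (c • v) (y - y'), herm_smul_left, div_mul_cancel₀ _ hv', hx]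
    have h2 : Ψ y (c • v) = Ψ y' (c • v) := by rw [hyy]
    apply hψ
    rw [← h1, alt_sub, QuotientAddGroup.mk_sub, AddChar.map_sub_eq_div, ← hΨ, ← hΨ, h2, div_self]
    rw [hΨ]
    exact (AddChar.val_isUnit ψ _).ne_zero
  have h1 := iso_card Ψ hinj (Yu hF hu X) (by
    rintro _ ⟨p, hp, rfl⟩ _ ⟨p', hp', rfl⟩
    rw [hΨ]
    have h2 : (alt hF p'.1.1 p.1.1 : Km hF) ∈ Zu hF hu X := by
      rw [mem_Zu]
      have h3 := commutator_siegel hF (IsSiegel.mk hu p'.2.1 p'.2.2) (IsSiegel.mk hu p.2.1 p.2.2)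
      have h4 : siegel hF u 0 _ (isT hu (alt hF p'.1.1 p.1.1).2) = _ := h3.symm
      rw [h4, commutatorElement_def]
      exact mul_mem (mul_mem (mul_mem hp' hp) (inv_mem hp')) (inv_mem hp)
    rw [(QuotientAddGroup.eq_zero_iff _).2 h2]
    exact AddChar.map_zero_eq_one ψ)
  rw [card_F hF, mul_comm 2 n, pow_mul, pow_two] at h1
  exact Nat.mul_self_le_mul_self_iff.1 h1

/-- the kernel-range count -/
theorem card_le_of_hom {G H : Type*} [Group G] [Finite G] [Group H] (X : Subgroup G) (f : G →* H) {a b : ℕ}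
    (ha : (f '' (X : Set G)).ncard ≤ a) (hb : ({x | x ∈ X ∧ f x = 1} : Set G).ncard ≤ b) : Nat.card X ≤ a * b := by
  let g : X →* H := f.comp X.subtype
  have h1 : g.ker.index = Nat.card g.range := Subgroup.index_ker g
  have h2 := Subgroup.card_mul_index g.ker
  have h3 : Nat.card g.range ≤ a := by
    refine le_trans (le_of_eq ?_) ha
    rw [← Nat.card_coe_set_eq]
    apply Nat.card_congr
    apply Equiv.setCongr
    ext x
    constructor
    · rintro ⟨y, rfl⟩
      exact ⟨y, y.2, rfl⟩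
    · rintro ⟨y, hy, rfl⟩
      exact ⟨⟨y, hy⟩, rfl⟩
  have h4 : Nat.card g.ker ≤ b := by
    refine le_trans ?_ hb
    rw [← Nat.card_coe_set_eq]
    apply Nat.card_le_card_of_injective (fun x : g.ker => (⟨x.1.1, x.1.2, x.2⟩ : {x : G // x ∈ X ∧ f x = 1}))
    intro x y hxy
    exact Subtype.ext (Subtype.ext (congrArg (fun z : {x : G // x ∈ X ∧ f x = 1} => z.1) hxy))
  rw [← h2, h1, mul_comm a b]
  exact Nat.mul_le_mul h4 h3

/-- **Heisenberg lemma.** -/
theorem card_heis (hF : Fintype.card F = q ^ 2) {u : Fin n → F} (hu : hermForm n F q u u = 0)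
    {X : Subgroup (SU n F q)} (hZ : Zu hF hu X ≠ ⊤) :
    Nat.card (X.comap (rho hF hu)) ≤ q ^ n * Nat.card (Zu hF hu X) := by
  apply card_le_of_hom _ (prV hF u)
  · refine le_trans ?_ (card_Yu hF hu hZ)
    rw [← Nat.card_coe_set_eq]
    apply Nat.card_le_card_of_injective (fun x : (prV hF u '' (X.comap (rho hF hu) : Set (HP hF u))) =>
      (⟨Multiplicative.toAdd x.1, by
        obtain ⟨p, hp, h⟩ := x.2
        refine ⟨p, hp, ?_⟩
        rw [← h]; rfl⟩ : Yu hF hu X))
    intro x y hxy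
    exact Subtype.ext (congrArg (fun z : Yu hF hu X => (z : Fin n → F)) hxy)
  · rw [← Nat.card_coe_set_eq]
    have h0 : ∀ x : HP hF u, prV hF u x = 1 → x.1.1 = 0 := fun x hx => hx
    have hK : ∀ x : HP hF u, prV hF u x = 1 → x.1.2 ∈ Km hF := by
      intro x hx
      have h2 := x.2.2
      rw [h0 x hx, herm_zero_left, add_zero] at h2
      exact h2
    apply Nat.card_le_card_of_injective (fun x : ({x | x ∈ X.comap (rho hF hu) ∧ prV hF u x = 1} : Set (HP hF u)) =>
      (⟨⟨x.1.1.2, hK x.1 x.2.2⟩, by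
        rw [mem_Zu]
        have h1 : rho hF hu x.1 ∈ X := x.2.1
        rw [rho_apply] at h1
        rwa [siegel_congr hF _ (isT hu (hK x.1 x.2.2)) rfl (h0 x.1 x.2.2) rfl] at h1⟩ : Zu hF hu X))
    intro x y hxy
    have h1 : x.1.1.2 = y.1.1.2 := congrArg (fun z : Zu hF hu X => (z.1.1 : F)) hxy
    exact Subtype.ext (HP.ext (by rw [h0 x.1 x.2.2, h0 y.1 y.2.2]) h1)

/-- the index form -/
theorem heis_index (hF : Fintype.card F = q ^ 2) {u : Fin n → F} (hu : hermForm n F q u u = 0)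
    {X : Subgroup (SU n F q)} (hZ : Zu hF hu X ≠ ⊤) (D : Subgroup (HP hF u)) :
    Nat.card D ≤ (X.comap (rho hF hu)).relIndex D * (q ^ n * Nat.card (Zu hF hu X)) := by
  have h1 := Subgroup.card_mul_index ((X.comap (rho hF hu)).subgroupOf D)
  have h2 : Nat.card ((X.comap (rho hF hu)).subgroupOf D) ≤ Nat.card (X.comap (rho hF hu)) := by
    apply Nat.card_le_card_of_injective (fun x : (X.comap (rho hF hu)).subgroupOf D =>
      (⟨x.1.1, x.2⟩ : X.comap (rho hF hu)))
    intro x y hxy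
    exact Subtype.ext (Subtype.ext (congrArg (fun z : X.comap (rho hF hu) => (z : HP hF u)) hxy))
  rw [← h1, mul_comm]
  exact Nat.mul_le_mul_left _ (h2.trans (card_heis hF hu hZ))

end Cfsg.Agent.H999.IFU
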