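import Cfsg.Agent.H999.IF.Heis
import Cfsg.Agent.H847.IF.Lift

/-!
# S5719, PSU_n(q), q even, n ≥ 5: a transvection in `A` is impossible (helper999)
-/

set_option autoImplicit false
set_option linter.unusedSectionVars false

namespace Cfsg.Agent.H999.IFU

open Cfsg Matrix Subgroup MulAction Cfsg.Agent.H209.Fxy Cfsg.Agent.LieClassical.HermBasic
  Cfsg.Agent.LieClassical.HermSiegel Cfsg.Agent.LieClassical.HermSimple Cfsg.Agent.LieClassical.HermGen

variable {F : Type*} [Field F] [Fintype F] {q n : ℕ}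

theorem card_ge_of_hom {G H : Type*} [Group G] [Finite G] [Group H] (X : Subgroup G) (f : G →* H) {a b : ℕ}
    (ha : a ≤ (f '' (X : Set G)).ncard) (hb : b ≤ ({x | x ∈ X ∧ f x = 1} : Set G).ncard) : a * b ≤ Nat.card X := by
  let g : X →* H := f.comp X.subtype
  have h1 : g.ker.index = Nat.card g.range := Subgroup.index_ker g
  have h2 := Subgroup.card_mul_index g.ker
  have h3 : a ≤ Nat.card g.range := by
    refine le_trans ha (le_of_eq ?_)
    rw [← Nat.card_coe_set_eq]
    apply Nat.card_congr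
    apply Equiv.setCongr
    ext x
    constructor
    · rintro ⟨y, hy, rfl⟩
      exact ⟨⟨y, hy⟩, rfl⟩
    · rintro ⟨y, rfl⟩
      exact ⟨y, y.2, rfl⟩
  have h4 : b ≤ Nat.card g.ker := by
    refine le_trans hb ?_
    rw [← Nat.card_coe_set_eq]
    apply Nat.card_le_card_of_injective (fun x : {x : G // x ∈ X ∧ f x = 1} => (⟨⟨x.1, x.2.1⟩, x.2.2⟩ : g.ker))
    intro x y hxy
    exact Subtype.ext (congrArg (fun z : g.ker => (z.1.1 : G)) hxy)
  rw [← h2, h1, mul_comm a b]
  exact Nat.mul_le_mul h4 h3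

/-- vectors orthogonal to a family -/
theorem card_perp (hF : Fintype.card F = q ^ 2) {k : ℕ} (v : Fin k → Fin n → F) :
    q ^ (2 * n) ≤ ({w : Fin n → F | ∀ i, hermForm n F q w (v i) = 0} : Set (Fin n → F)).ncard * q ^ (2 * k) := by
  let L : (Fin n → F) →+ (Fin k → F) :=
    { toFun := fun w i => hermForm n F q w (v i)
      map_zero' := by funext i; exact herm_zero_left _
      map_add' := by intro a b; funext i; exact herm_add_left _ _ _ }
  have h1 : L.ker.index = Nat.card L.range := AddSubgroup.index_ker L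
  have h2 := AddSubgroup.card_mul_index L.ker
  have h3 : Nat.card L.range ≤ q ^ (2 * k) := by
    rw [← card_F (n := k) hF]
    exact Nat.card_le_card_of_injective _ Subtype.val_injective
  have h4 : Nat.card L.ker = ({w : Fin n → F | ∀ i, hermForm n F q w (v i) = 0} : Set (Fin n → F)).ncard := by
    rw [← Nat.card_coe_set_eq]
    apply Nat.card_congr
    apply Equiv.setCongr
    ext w
    constructor
    · intro hw i
      exact congrFun (AddMonoidHom.mem_ker.1 hw) i
    · intro hw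
      exact AddMonoidHom.mem_ker.2 (funext hw)
  rw [card_F hF, h1, h4] at h2
  rw [← h2]
  exact Nat.mul_le_mul_left _ h3

theorem q_pos' (hF : Fintype.card F = q ^ 2) : 0 < q := q_pos hF

theorem exists_ne_perp (hF : Fintype.card F = q ^ 2) {k : ℕ} (hk : k < n) (v : Fin k → Fin n → F) :
    ∃ w : Fin n → F, w ≠ 0 ∧ ∀ i, hermForm n F q w (v i) = 0 := by
  by_contra hcon
  push Not at hcon
  have h1 := card_perp hF v
  have h2 : ({w : Fin n → F | ∀ i, hermForm n F q w (v i) = 0} : Set (Fin n → F)).ncard ≤ 1 := by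
    rw [Set.ncard_le_one]
    intro a ha b hb
    have h3 : ∀ w : Fin n → F, (∀ i, hermForm n F q w (v i) = 0) → w = 0 := by
      intro w hw
      by_contra h0
      obtain ⟨i, hi⟩ := hcon w h0
      exact hi (hw i)
    rw [h3 a ha, h3 b hb]
  have h3 : q ^ (2 * n) ≤ q ^ (2 * k) := by
    calc q ^ (2 * n) ≤ _ := h1
      _ ≤ 1 * q ^ (2 * k) := Nat.mul_le_mul_right _ h2
      _ = _ := one_mul _
  have h4 := (Nat.pow_le_pow_iff_right (two_le hF)).1 h3
  omega

/-- two vectors have a common orthogonal isotropic vector -/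
theorem exists_common_iso (hF : Fintype.card F = q ^ 2) (hn : 4 ≤ n) (u e : Fin n → F) :
    ∃ v : Fin n → F, v ≠ 0 ∧ hermForm n F q v v = 0 ∧ hermForm n F q v u = 0 ∧ hermForm n F q v e = 0 := by
  obtain ⟨v1, h10, h1⟩ := exists_ne_perp hF (by omega : 2 < n) ![u, e]
  have h1u : hermForm n F q v1 u = 0 := h1 0
  have h1e : hermForm n F q v1 e = 0 := h1 1
  by_cases h11 : hermForm n F q v1 v1 = 0
  · exact ⟨v1, h10, h11, h1u, h1e⟩
  obtain ⟨v2, h20, h2⟩ := exists_ne_perp hF (by omega : 3 < n) ![u, e, v1]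
  have h2u : hermForm n F q v2 u = 0 := h2 0
  have h2e : hermForm n F q v2 e = 0 := h2 1
  have h21 : hermForm n F q v2 v1 = 0 := h2 2
  by_cases h22 : hermForm n F q v2 v2 = 0
  · exact ⟨v2, h20, h22, h2u, h2e⟩
  have h12 : hermForm n F q v1 v2 = 0 := herm_eq_zero_swap hF h21
  obtain ⟨x, hx⟩ := exists_norm_eq hF (c := -(hermForm n F q v1 v1 / hermForm n F q v2 v2)) (by
    rw [neg_pow_q hF, div_pow, herm_self_pow hF, herm_self_pow hF])
  refine ⟨v1 + x • v2, ?_, ?_, ?_, ?_⟩
  · intro h0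
    have h3 : hermForm n F q (v1 + x • v2) v1 = hermForm n F q v1 v1 := by
      rw [herm_add_left, herm_smul_left, h21, mul_zero, add_zero]
    rw [h0, herm_zero_left] at h3
    exact h11 h3.symm
  · rw [herm_add_left, herm_add_right hF, herm_add_right hF, herm_smul_left, herm_smul_left, herm_smul_right,
      herm_smul_right, h12, h21]
    have h4 : hermForm n F q v1 v1 + x * x ^ q * hermForm n F q v2 v2 = 0 := by
      rw [hx, neg_mul, div_mul_cancel₀ _ h22, add_neg_cancel]
    linear_combination h4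
  · rw [herm_add_left, herm_smul_left, h1u, h2u]; ring
  · rw [herm_add_left, herm_smul_left, h1e, h2e]; ring

/-- Siegel elements of `u` whose vector is orthogonal to a family -/
def Df (hF : Fintype.card F = q ^ 2) (u : Fin n → F) {k : ℕ} (v : Fin k → Fin n → F) : Subgroup (HP hF u) where
  carrier := {p | ∀ i, hermForm n F q p.1.1 (v i) = 0}
  one_mem' := fun i => herm_zero_left _
  mul_mem' := by
    intro a b ha hb i
    rw [HP.mul_fst, herm_add_left, ha i, hb i, add_zero]
  inv_mem' := by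
    intro a ha i
    rw [HP.inv_fst, herm_neg_left, ha i, neg_zero]

theorem mem_Km_iff (hF : Fintype.card F = q ^ 2) (h2 : (2 : F) = 0) {κ : F} : κ ∈ Km hF ↔ κ ^ q = κ := by
  rw [mem_Km]
  have h3 : κ + κ = 0 := by rw [← two_mul, h2, zero_mul]
  constructor
  · intro h; linear_combination h - h3
  · intro h; linear_combination h + h3

theorem card_Km (hF : Fintype.card F = q ^ 2) (h2 : (2 : F) = 0) : Nat.card (Km hF) = q := by
  refine Eq.trans ?_ (card_fixed hF)
  exact Nat.card_congr (Equiv.subtypeEquivRight fun x => mem_Km_iff hF h2)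

theorem card_Df (hF : Fintype.card F = q ^ 2) (h2 : (2 : F) = 0) (u : Fin n → F) {k : ℕ} (v : Fin k → Fin n → F) :
    q ^ (2 * n) * q ≤ Nat.card (Df hF u v) * q ^ (2 * (k + 1)) := by
  have h1 := card_perp hF (Fin.cons u v : Fin (k + 1) → Fin n → F)
  have h3 := card_ge_of_hom (Df hF u v) (prV hF u) (a := _) (b := q) (le_refl _) (by
    rw [← Nat.card_coe_set_eq]
    refine (card_Km hF h2).symm.le.trans ?_
    apply Nat.card_le_card_of_injective (fun κ : Km hF =>
      (⟨⟨(0, κ.1), herm_zero_left u, by rw [herm_zero_left, add_zero]; exact κ.2⟩, fun i => herm_zero_left _, rfl⟩ :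
        {x : HP hF u // x ∈ Df hF u v ∧ prV hF u x = 1}))
    intro x y hxy
    exact Subtype.ext (congrArg (fun z : {x : HP hF u // x ∈ Df hF u v ∧ prV hF u x = 1} => z.1.1.2) hxy))
  have h4 : ({w : Fin n → F | ∀ i, hermForm n F q w ((Fin.cons u v : Fin (k + 1) → Fin n → F) i) = 0} :
      Set (Fin n → F)).ncard ≤ (prV hF u '' (Df hF u v : Set (HP hF u))).ncard := by
    rw [← Nat.card_coe_set_eq, ← Nat.card_coe_set_eq]
    apply Nat.card_le_card_of_injective (fun w : {w : Fin n → F | ∀ i, hermForm n F q w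
      ((Fin.cons u v : Fin (k + 1) → Fin n → F) i) = 0} => (⟨Multiplicative.ofAdd w.1, by
        obtain ⟨μ, hμ⟩ := exists_trace_eq hF (c := -hermForm n F q w.1 w.1) (by
          rw [neg_pow_q hF, herm_self_pow hF])
        exact ⟨⟨(w.1, μ), w.2 0, by rw [hμ, neg_add_cancel]⟩, fun i => w.2 i.succ, rfl⟩⟩ :
        (prV hF u '' (Df hF u v : Set (HP hF u)))))
    intro x y hxy
    exact Subtype.ext (congrArg (fun z : (prV hF u '' (Df hF u v : Set (HP hF u))) => Multiplicative.toAdd z.1) hxy)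
  calc q ^ (2 * n) * q ≤ (_ * q ^ (2 * (k + 1))) * q := Nat.mul_le_mul_right _ h1
    _ ≤ ((prV hF u '' (Df hF u v : Set (HP hF u))).ncard * q ^ (2 * (k + 1))) * q :=
      Nat.mul_le_mul_right _ (Nat.mul_le_mul_right _ h4)
    _ = ((prV hF u '' (Df hF u v : Set (HP hF u))).ncard * q) * q ^ (2 * (k + 1)) := by ring
    _ ≤ _ := Nat.mul_le_mul_right _ h3

/-- a coarse bound for an index -/
theorem index_le_of_map {G S : Type*} [Group G] [Finite S] (H : Subgroup G) (φ : G → S)
    (hφ : ∀ g g', φ g = φ g' → g⁻¹ * g' ∈ H) : H.index ≤ Nat.card S := by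
  apply Nat.card_le_card_of_injective (fun c : G ⧸ H => φ c.out)
  intro c c' hcc
  have h1 := hφ _ _ hcc
  rw [← QuotientGroup.eq, QuotientGroup.out_eq', QuotientGroup.out_eq'] at h1
  exact h1

theorem act_transv (hF : Fintype.card F = q ^ 2) {e : Fin n → F} (he : hermForm n F q e e = 0) {κ : F}
    (hκ : κ ∈ Km hF) (v : Fin n → F) :
    act (siegel hF e 0 κ (isT he hκ)) v = v + (κ * hermForm n F q v e) • e := by
  rw [act_siegel, smul_zero, add_zero, herm_zero_right hF, sub_zero]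

theorem transv_not_central (hF : Fintype.card F = q ^ 2) (hn : 3 ≤ n) {e : Fin n → F} (he0 : e ≠ 0)
    (he : hermForm n F q e e = 0) {κ : F} (hκ : κ ∈ Km hF) (hκ0 : κ ≠ 0) :
    siegel hF e 0 κ (isT he hκ) ∉ center (SU n F q) := by
  intro hmem
  obtain ⟨e', he', hee⟩ := exists_partner hF he0 he
  have he'0 : e' ≠ 0 := by
    rintro rfl
    rw [herm_zero_right hF] at hee
    exact zero_ne_one hee
  obtain ⟨x, -, hx⟩ := exists_map_iso hF hn le_rfl (mem_coordSub_top e) (mem_coordSub_top e') he0 he'0 he he'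
  have hcomm := Subgroup.mem_center_iff.1 hmem x
  have h1 := congrArg (fun y => act y e) hcomm
  simp only [act_mul, act_siegel_self, hx] at h1
  rw [act_transv hF he hκ, herm_swap hF e e', hee, one_pow, mul_one] at h1
  have h2 : κ • e = 0 := by
    have := congrArg (fun y => y - e') h1
    simpa using this.symm
  rcases smul_eq_zero.1 h2 with h | h
  · exact hκ0 h
  · exact he0 h

section Main

variable {T : Type*} [Group T] [Finite T] [IsSimpleGroup T] {A : Subgroup T} {Γ : Subgroup (MulAut T)}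

theorem pi_transv_ne (hF : Fintype.card F = q ^ 2) (hn : 5 ≤ n) (pi : SU n F q →* T)
    (hpi : Function.Surjective pi) {e : Fin n → F} (he0 : e ≠ 0)
    (he : hermForm n F q e e = 0) {κ : F} (hκ : κ ∈ Km hF) (hκ0 : κ ≠ 0) :
    pi (siegel hF e 0 κ (isT he hκ)) ≠ 1 := by
  intro h1
  have h2 : pi.ker = ⊤ := by
    apply Cfsg.Agent.LieClassical.HermPerfect.normal_eq_top hF (by omega) (by omega)
    intro h3
    exact transv_not_central hF (by omega) he0 he hκ hκ0 (h3 h1)
  obtain ⟨a, b, hab⟩ := exists_pair_ne T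
  apply hab
  have h3 : ∀ y : T, y = 1 := by
    intro y
    obtain ⟨x, rfl⟩ := hpi y
    have : x ∈ pi.ker := by rw [h2]; trivial
    exact this
  rw [h3 a, h3 b]

theorem transv_sq (hF : Fintype.card F = q ^ 2) (h2 : (2 : F) = 0) {e : Fin n → F}
    (he : hermForm n F q e e = 0) {κ : F} (hκ : κ ∈ Km hF) :
    siegel hF e 0 κ (isT he hκ) * siegel hF e 0 κ (isT he hκ) = 1 := by
  rw [siegel_mul, siegel_congr hF _ (IsSiegel.zero hF he) rfl (add_zero _) ?_, siegel_zero]
  rw [herm_zero_left, sub_zero, ← two_mul, h2, zero_mul]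

/-- (i) -/
theorem step1 (hF : Fintype.card F = q ^ 2) (h2 : (2 : F) = 0) (hn : 5 ≤ n) (h : IF A Γ)
    (hna : ∃ a b : T, a * b ≠ b * a) (pi : SU n F q →* T)
    (hpi : Function.Surjective pi) {e : Fin n → F} (he0 : e ≠ 0)
    (he : hermForm n F q e e = 0) {κ : F} (hκ : κ ∈ Km hF) (hκ0 : κ ≠ 0)
    (ht : pi (siegel hF e 0 κ (isT he hκ)) ∈ A) {u : Fin n → F} (hu : hermForm n F q u u = 0)
    (hue : hermForm n F q u e = 0) : Zu hF hu (A.comap pi) ≠ ⊥ := by
  intro hZ
  have hq := two_le hF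
  set t := siegel hF e 0 κ (isT he hκ) with ht_def
  have hcZ : Nat.card (Zu hF hu (A.comap pi)) = 1 := by rw [hZ]; exact AddSubgroup.card_bot
  have hZt : Zu hF hu (A.comap pi) ≠ ⊤ := by
    intro h3
    have h4 : Nat.card (Zu hF hu (A.comap pi)) = Nat.card (Km hF) := by rw [h3]; exact AddSubgroup.card_top
    rw [hcZ, card_Km hF h2] at h4
    omega
  have h5 := heis_index hF hu hZt (Df hF u ![e])
  rw [hcZ, mul_one] at h5
  have h6 := card_Df hF h2 u ![e]
  have h7 := Cfsg.Agent.H847.IF.lift_E2 h hna pi hpi ht (pi_transv_ne hF hn pi hpi he0 he hκ hκ0)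
    (by rw [transv_sq hF h2 he hκ, map_one]) (B := (Df hF u ![e]).map (rho hF hu)) (by
      rintro _ ⟨p, hp, rfl⟩
      congr 1
      have hp0 : hermForm n F q p.1.1 e = 0 := hp 0
      rw [rho_apply]
      have h8 := conj_siegel hF (IsSiegel.mk hu p.2.1 p.2.2) t
      rw [mul_inv_eq_iff_eq_mul] at h8
      rw [h8]
      congr 1
      apply siegel_congr
      · rw [ht_def, act_transv hF he hκ, hue, mul_zero, zero_smul, add_zero]
      · rw [ht_def, act_transv hF he hκ, hp0, mul_zero, zero_smul, add_zero]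
      · rfl)
  have h8 : (centralizer ({t} : Set (SU n F q))).index ≤ q ^ (2 * n) := by
    rw [← card_F hF]
    apply index_le_of_map _ (fun g => act g e)
    intro g g' hgg
    rw [mem_centralizer_iff]
    rintro _ rfl
    have h9 : act (g⁻¹ * g') e = e := by
      rw [act_mul, ← hgg, act_inv_act]
    have h10 := conj_siegel hF (isT he hκ) (g⁻¹ * g')
    rw [mul_inv_eq_iff_eq_mul] at h10
    rw [ht_def, h10]
    congr 1
    apply siegel_congr
    · exact h9.symm
    · exact (act_zero _).symm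
    · rfl
  rw [← relIndex_comap] at h7
  set r := ((A.comap pi).comap (rho hF hu)).relIndex (Df hF u ![e]) with hr
  have h9 : q ^ (n - 3) ≤ r := by
    have h10 : q ^ (2 * n) * q ≤ r * q ^ n * q ^ (2 * (1 + 1)) := h6.trans (Nat.mul_le_mul_right _ h5)
    have h11 : q ^ (2 * n) * q = q ^ (n - 3) * (q ^ n * q ^ (2 * (1 + 1))) := by
      rw [← pow_succ, ← pow_add, ← pow_add]
      congr 1
      omega
    rw [h11, mul_assoc r] at h10
    exact Nat.le_of_mul_le_mul_right h10 (by positivity)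
  have h10 : (q ^ (n - 3)) ^ 5 < q ^ (2 * n) :=
    lt_of_le_of_lt (Nat.pow_le_pow_left h9 5) (lt_of_lt_of_le h7 h8)
  rw [← pow_mul] at h10
  have h11 := (Nat.pow_lt_pow_iff_right (by omega)).1 h10
  omega

theorem exists_of_Zu {hF : Fintype.card F = q ^ 2} {u : Fin n → F} {hu : hermForm n F q u u = 0}
    {X : Subgroup (SU n F q)} (h : Zu hF hu X ≠ ⊥) :
    ∃ (κ : F) (hκ : κ ∈ Km hF), κ ≠ 0 ∧ siegel hF u 0 κ (isT hu hκ) ∈ X := by
  obtain ⟨κ, hκ, h0⟩ := (AddSubgroup.bot_or_exists_ne_zero (Zu hF hu X)).resolve_left h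
  exact ⟨κ.1, κ.2, fun h1 => h0 (Subtype.ext h1), hκ⟩

/-- the walk -/
theorem step2 (hF : Fintype.card F = q ^ 2) (h2 : (2 : F) = 0) (hn : 5 ≤ n) (h : IF A Γ)
    (hna : ∃ a b : T, a * b ≠ b * a) (pi : SU n F q →* T)
    (hpi : Function.Surjective pi) {e : Fin n → F} (he0 : e ≠ 0)
    (he : hermForm n F q e e = 0) {κ : F} (hκ : κ ∈ Km hF) (hκ0 : κ ≠ 0)
    (ht : pi (siegel hF e 0 κ (isT he hκ)) ∈ A) {u : Fin n → F} (hu : hermForm n F q u u = 0) :
    Zu hF hu (A.comap pi) ≠ ⊥ := by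
  obtain ⟨v, hv0, hv, hvu, hve⟩ := exists_common_iso hF (by omega : 4 ≤ n) u e
  obtain ⟨κ', hκ', hκ'0, h3⟩ := exists_of_Zu (step1 hF h2 hn h hna pi hpi he0 he hκ hκ0 ht hv hve)
  exact step1 hF h2 hn h hna pi hpi hv0 hv hκ' hκ'0 h3 hu (herm_eq_zero_swap hF hvu)

/-- the fixed cosets of `s` -/
def Fix (A : Subgroup T) (s : T) : Set (T ⧸ A) := {c | s • c = c}

theorem fix_lt (h : IF A Γ) (hna : ∃ a b : T, a * b ≠ b * a) {s y : T} (hs : y⁻¹ * s * y ∈ A) (hs1 : s ≠ 1)
    (hs2 : s * s = 1) : (Fix A s).ncard ^ 6 < A.index := by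
  set a := y⁻¹ * s * y with ha
  have ha2 : orderOf a = 2 := by
    apply orderOf_eq_prime
    · rw [pow_two, ha]
      have : y⁻¹ * s * y * (y⁻¹ * s * y) = y⁻¹ * (s * s) * y := by group
      rw [this, hs2]; group
    · intro h1
      apply hs1
      have : s = y * a * y⁻¹ := by rw [ha]; group
      rw [this, h1]; group
  have h1 := h.small (MulAut.conj a) ((h.conj a).2 hs) (by
    rw [Cfsg.Agent.H999.IFB.orderOf_conj hna]; exact ha2)
  refine lt_of_le_of_lt (Nat.pow_le_pow_left ?_ 6) h1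
  rw [fx]
  apply Set.ncard_le_ncard_of_injOn (fun c => y⁻¹ • c) _ (MulAction.injective y⁻¹).injOn (Set.toFinite _)
  intro c hc
  induction c using QuotientGroup.induction_on with
  | H z =>
    have h3 : s • (z : T ⧸ A) = (z : T ⧸ A) := hc
    have h4 : z⁻¹ * s * z ∈ A := by
      have h5 : ((s * z : T) : T ⧸ A) = (z : T ⧸ A) := h3
      have h6 := QuotientGroup.eq.1 h5.symm
      rwa [← mul_assoc] at h6
    refine ⟨y⁻¹ * z, rfl, ?_⟩
    rw [MulAut.conj_apply]
    have h7 : (y⁻¹ * z)⁻¹ * (a * (y⁻¹ * z) * a⁻¹) = (z⁻¹ * s * z) * a⁻¹ := by rw [ha]; group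
    rw [h7]
    exact A.mul_mem h4 (A.inv_mem hs)

/-- (ii) every root group meets every point stabiliser: `n^5 < (q-1)^6`. -/
theorem step3 (hF : Fintype.card F = q ^ 2) (h2 : (2 : F) = 0) (hn : 5 ≤ n) (h : IF A Γ)
    (hna : ∃ a b : T, a * b ≠ b * a) (pi : SU n F q →* T)
    (hpi : Function.Surjective pi) {e : Fin n → F} (he0 : e ≠ 0)
    (he : hermForm n F q e e = 0) (hall : ∀ (u : Fin n → F) (hu : hermForm n F q u u = 0), Zu hF hu (A.comap pi) ≠ ⊥) :
    A.index ^ 5 < (q - 1) ^ 6 := by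
  classical
  have hq := two_le hF
  let s : Km hF → T := fun κ => pi (siegel hF e 0 κ.1 (isT he κ.2))
  have := Fintype.ofFinite (Km hF)
  have := Fintype.ofFinite (T ⧸ A)
  let S : Finset (Km hF) := Finset.univ.erase 0
  have hS : S.card = q - 1 := by
    rw [Finset.card_erase_of_mem (Finset.mem_univ _), Finset.card_univ, ← Nat.card_eq_fintype_card, card_Km hF h2]
  have hcov : ∀ c : T ⧸ A, ∃ κ ∈ S, c ∈ Fix A (s κ) := by
    intro c
    induction c using QuotientGroup.induction_on with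
    | H y =>
      obtain ⟨g, rfl⟩ := hpi y
      have hiso : hermForm n F q (act g⁻¹ e) (act g⁻¹ e) = 0 := by rw [herm_act]; exact he
      obtain ⟨κ, hκ, hκ0, h3⟩ := exists_of_Zu (hall (act g⁻¹ e) hiso)
      refine ⟨⟨κ, hκ⟩, Finset.mem_erase.2 ⟨fun h0 => hκ0 (congrArg Subtype.val h0), Finset.mem_univ _⟩, ?_⟩
      have h4 := conj_siegel hF (isT he hκ) g⁻¹
      rw [siegel_congr hF _ (isT hiso hκ) rfl (act_zero _) rfl] at h4
      rw [← h4, inv_inv] at h3
      have h5 : pi (g⁻¹ * siegel hF e 0 κ (isT he hκ) * g) ∈ A := h3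
      rw [map_mul, map_mul, map_inv] at h5
      change ((s ⟨κ, hκ⟩ * pi g : T) : T ⧸ A) = (pi g : T ⧸ A)
      symm
      rw [QuotientGroup.eq, ← mul_assoc]
      exact h5
  have hsm : ∀ κ ∈ S, (Fix A (s κ)).ncard ^ 6 < A.index := by
    intro κ hκ
    rcases Set.eq_empty_or_nonempty (Fix A (s κ)) with h0 | ⟨c, hc⟩
    · rw [h0, Set.ncard_empty]
      have := h.big
      omega
    · induction c using QuotientGroup.induction_on with
      | H y =>
        have h5 : ((s κ * y : T) : T ⧸ A) = (y : T ⧸ A) := hc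
        have h6 := QuotientGroup.eq.1 h5.symm
        rw [← mul_assoc] at h6
        have hκ0 : κ.1 ≠ 0 := fun h0 => (Finset.mem_erase.1 hκ).1 (Subtype.ext h0)
        apply fix_lt h hna h6 (pi_transv_ne hF hn pi hpi he0 he κ.2 hκ0)
        change pi _ * pi _ = 1
        rw [← map_mul, transv_sq hF h2 he κ.2, map_one]
  have hne : S.Nonempty := by
    rw [← Finset.card_pos, hS]
    omega
  obtain ⟨κ0, hκ0, hmax⟩ := S.exists_max_image (fun κ => (Fix A (s κ)).ncard) hne
  set M := (Fix A (s κ0)).ncard with hM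
  have h3 : A.index ≤ (q - 1) * M := by
    have h4 : Nat.card (T ⧸ A) = (Finset.univ : Finset (T ⧸ A)).card := by
      rw [Nat.card_eq_fintype_card, Finset.card_univ]
    have h5 : (Finset.univ : Finset (T ⧸ A)) ⊆ S.biUnion (fun κ => (Fix A (s κ)).toFinset) := by
      intro c _
      obtain ⟨κ, hκ, hc⟩ := hcov c
      rw [Finset.mem_biUnion]
      exact ⟨κ, hκ, by rw [Set.mem_toFinset]; exact hc⟩
    change Nat.card (T ⧸ A) ≤ _
    rw [h4, ← hS]
    refine (Finset.card_le_card h5).trans (Finset.card_biUnion_le_card_mul _ _ _ ?_)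
    intro κ hκ
    have h6 := hmax κ hκ
    rwa [← Set.ncard_eq_toFinset_card']
  have h4 := hsm κ0 hκ0
  have h5 : A.index ^ 6 ≤ (q - 1) ^ 6 * M ^ 6 := by
    rw [← mul_pow]
    exact Nat.pow_le_pow_left h3 6
  have h6 : 0 < (q - 1) ^ 6 := pow_pos (by omega) 6
  have h7 : A.index * A.index ^ 5 < A.index * (q - 1) ^ 6 := by
    calc A.index * A.index ^ 5 = A.index ^ 6 := by ring
      _ ≤ (q - 1) ^ 6 * M ^ 6 := h5
      _ < (q - 1) ^ 6 * A.index := Nat.mul_lt_mul_of_pos_left h4 h6
      _ = _ := by ring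
  exact lt_of_mul_lt_mul_left h7 (Nat.zero_le _)

/-- **A transvection in `A` is impossible** (matrix model). -/
theorem transv_false (hF : Fintype.card F = q ^ 2) (h2 : (2 : F) = 0) (hn : 5 ≤ n) (h : IF A Γ)
    (hna : ∃ a b : T, a * b ≠ b * a) (pi : SU n F q →* T)
    (hpi : Function.Surjective pi) {e : Fin n → F} (he0 : e ≠ 0)
    (he : hermForm n F q e e = 0) {κ : F} (hκ : κ ∈ Km hF) (hκ0 : κ ≠ 0)
    (ht : pi (siegel hF e 0 κ (isT he hκ)) ∈ A) : False := by
  have hq := two_le hF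
  have hall : ∀ (u : Fin n → F) (hu : hermForm n F q u u = 0), Zu hF hu (A.comap pi) ≠ ⊥ :=
    fun u hu => step2 hF h2 hn h hna pi hpi he0 he hκ hκ0 ht hu
  have h3 := step3 hF h2 hn h hna pi hpi he0 he hall
  -- all transvections are in `X`
  have htop : ∀ (u : Fin n → F) (hu : hermForm n F q u u = 0), Zu hF hu (A.comap pi) = ⊤ := by
    intro u hu
    by_contra hZ
    have h5 := heis_index hF hu hZ (Df hF u ![])
    have h6 := card_Df hF h2 u ![]
    have h7 : Nat.card (Zu hF hu (A.comap pi)) ≤ q :=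
      (Nat.card_le_card_of_injective _ Subtype.val_injective).trans (card_Km hF h2).le
    have h8 : ((A.comap pi).comap (rho hF hu)).relIndex (Df hF u ![]) ≤ A.index := by
      rw [relIndex_comap, relIndex_comap]
      have h81 := A.relIndex_le_of_le_right (K := map pi (map (rho hF hu) (Df hF u ![]))) (L := ⊤) le_top (by
        rw [relIndex_top_right]; exact index_ne_zero_of_finite)
      rwa [relIndex_top_right] at h81
    have h9 : q ^ (2 * n) * q ≤ A.index * (q ^ n * q) * q ^ (2 * (0 + 1)) := by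
      refine h6.trans (Nat.mul_le_mul_right _ (h5.trans ?_))
      exact Nat.mul_le_mul h8 (Nat.mul_le_mul_left _ h7)
    have h10 : q ^ (n - 2) ≤ A.index := by
      have h11 : q ^ (2 * n) * q = q ^ (n - 2) * (q ^ n * q * q ^ (2 * (0 + 1))) := by
        rw [← pow_succ, ← pow_succ, ← pow_add, ← pow_add]
        congr 1
        omega
      rw [h11, mul_assoc A.index] at h9
      exact Nat.le_of_mul_le_mul_right h9 (by positivity)
    have h11 : (q ^ (n - 2)) ^ 5 < q ^ 6 :=
      lt_of_le_of_lt (Nat.pow_le_pow_left h10 5) (lt_of_lt_of_le h3 (Nat.pow_le_pow_left (Nat.sub_le _ _) 6))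
    rw [← pow_mul] at h11
    have h12 := (Nat.pow_lt_pow_iff_right (by omega)).1 h11
    omega
  have hX : A.comap pi = ⊤ := by
    rw [eq_top_iff, ← Cfsg.Agent.LieClassical.HermPerfect.normal_eq_top hF (by omega) (by omega)
      (N := normalClosure {siegel hF e 0 κ (isT he hκ)}) (fun hle =>
        transv_not_central hF (by omega) he0 he hκ hκ0 (hle (subset_normalClosure (Set.mem_singleton _))))]
    rw [normalClosure, closure_le]
    intro x hx
    obtain ⟨t, ht', hc⟩ := Group.mem_conjugatesOfSet_iff.1 hx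
    rw [Set.mem_singleton_iff] at ht'
    subst ht'
    obtain ⟨g, rfl⟩ := isConj_iff.1 hc
    rw [conj_siegel]
    have hiso : hermForm n F q (act g e) (act g e) = 0 := by rw [herm_act]; exact he
    have h4 : (⟨κ, hκ⟩ : Km hF) ∈ Zu hF hiso (A.comap pi) := by rw [htop]; trivial
    rw [mem_Zu] at h4
    rwa [siegel_congr hF _ (isT hiso hκ) rfl (act_zero _) rfl]
  apply h.ne_top
  rw [eq_top_iff]
  intro y _
  obtain ⟨x, rfl⟩ := hpi y
  have : x ∈ A.comap pi := by rw [hX]; trivial
  exact this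

end Main

end Cfsg.Agent.H999.IFU

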